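import Cfsg.Agent.H937.Conj.CC
import Cfsg.Agent.H917.Conj.Basic
import Cfsg.Agent.H129.CycCardF
import Cfsg.Agent.H122.Cyc.TwF4Deg

/-!
# The conjugation character: `²F₄(q)` (S4792, helper476)

The torus of order `q² + √(2q³) + q + √(2q) + 1` is a CC-subgroup; the nontrivial characters have degree `≥ 2 q⁴`.
-/

set_option autoImplicit false

open Cfsg

namespace Cfsg.Agent.H476.Conj

open Cfsg.Lie Cfsg.Agent.H430.Conj Cfsg.Agent.Characters.Core Subgroup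

/-- a lower bound for the degrees, for characters -/
theorem le_of_minDeg {G : Type*} [Group G] [Finite G] [hs : IsSimpleGroup G] {b : ℕ} (h : H122.MinDeg G b) {χ : G → ℂ}
    (hχ : IsIrrCharacter G χ) (h1 : χ ≠ 1) {d : ℕ} (hd : χ 1 = d) : b ≤ d := by
  obtain ⟨n, ρ, hρ, rfl⟩ := hχ
  have hn : n = d := by
    rw [Representation.char_one] at hd
    simp only [Module.finrank_fintype_fun_eq_card, Fintype.card_fin] at hd
    exact_mod_cast hd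
  subst hn
  obtain ⟨g, hg⟩ := exists_ne (1 : G)
  have h2 := h (Fin n → ℂ) ρ ⟨g, fun h3 => hg (injective_of_simple hρ h1 (by rw [h3, map_one]))⟩
  simpa using h2

theorem arith_aux {b q : ℕ} (hb : 2 ≤ b) (hq : q = 2 * b ^ 2) :
    1 + 2 * b + 2 * b ^ 2 + 4 * b ^ 3 + 4 * b ^ 4 ≤ 3 * q ^ 2 ∧ 8 ≤ q := by
  have h1 : 4 ≤ b ^ 2 := by nlinarith
  refine ⟨?_, by omega⟩
  have e3 : 2 * b ^ 3 ≤ b ^ 4 := by
    calc 2 * b ^ 3 ≤ b * b ^ 3 := Nat.mul_le_mul_right _ hb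
      _ = b ^ 4 := by ring
  have e2 : 4 * b ^ 2 ≤ b ^ 4 := by
    calc 4 * b ^ 2 ≤ b ^ 2 * b ^ 2 := Nat.mul_le_mul_right _ h1
      _ = b ^ 4 := by ring
  have e1 : 2 * b ≤ b ^ 2 := by nlinarith
  have e4 : q ^ 2 = 4 * b ^ 4 := by rw [hq]; ring
  omega

/-- the row of `²F₄(q)` -/
theorem row_tf4 {S : Type*} [Group S] [Finite S] (h : Lie.Iso2F4 S) (hs : IsSimpleGroup S) : Row S := by
  obtain ⟨K, _, _, m, hm, hK, ⟨e⟩⟩ := h
  have hsT : IsSimpleGroup ↥(twistedF4 K (2 ^ m)) := e.symm.isSimpleGroup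
  have hfin : Finite ↥(twistedF4 K (2 ^ m)) := Finite.of_equiv S e.toEquiv
  refine Row.of_equiv e.symm ?_
  have hmin := H122.Cyc.TwF4.minDeg_twf4 hm hK hsT
  set N := 1 + 2 * (2 ^ m) + 2 * (2 ^ m) ^ 2 + 4 * (2 ^ m) ^ 3 + 4 * (2 ^ m) ^ 4 with hN
  obtain ⟨T, -, hT1, hT⟩ := H129.CycCard.exact_tF4_plus hK (N := N) (by rw [hN]; push_cast; ring)
  have hb : 2 ≤ 2 ^ m := by
    calc 2 = 2 ^ 1 := by norm_num
      _ ≤ 2 ^ m := Nat.pow_le_pow_right (by norm_num) hm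
  have hq : 2 ^ (2 * m + 1) = 2 * (2 ^ m) ^ 2 := by
    rw [← pow_mul, pow_succ, mul_comm m 2]; ring
  obtain ⟨h3, h8⟩ := arith_aux hb hq
  have hT0 : T ≠ ⊥ := by
    rintro rfl
    rw [Subgroup.card_bot] at hT1
    omega
  refine row_of_cc hT0 hT fun χ d hχ hχ1 hd => ?_
  have h1 := le_of_minDeg hmin hχ hχ1 hd
  rw [hK] at h1
  rw [hT1]
  rw [← hN] at h3
  generalize 2 ^ (2 * m + 1) = q at *
  calc N ^ 2 * (N - 1) ≤ (3 * q ^ 2) ^ 2 * (3 * q ^ 2) :=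
        Nat.mul_le_mul (Nat.pow_le_pow_left h3 2) ((Nat.sub_le _ _).trans h3)
    _ = 27 * q ^ 6 := by ring
    _ ≤ (4 * q ^ 2) * q ^ 6 := Nat.mul_le_mul_right _ (by nlinarith)
    _ = (2 * q ^ 4) ^ 2 := by ring
    _ ≤ d ^ 2 := Nat.pow_le_pow_left h1 2

end Cfsg.Agent.H476.Conj
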